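import Cfsg.Agent.H980.RB.Cut
import Cfsg.Agent.H572.FR.Fx
import Cfsg.Agent.SmallSimple.BTBasic

/-!
# Character bounds from normalised abelian subgroups (S2452, `F₄(q)`; helper395)

* `card_mul_cd` : `|B| dim V^B = ∑ χ(b)`;
* `cd_le` : if `‖χ b‖ ≤ r χ(1)` for `1 ≠ b ∈ B` then `dim V^B ≤ (r + 1 / |B|) χ(1)`;
* `norm_le_cd` : `Q` abelian, normalised by `g`, `B ≤ [Q, g]` : `‖χ g‖ ≤ dim V^B`;
* `bound_abelian` : moreover `A ≤ Q` with `‖χ a‖ ≤ r χ(1)` on `A - 1` : `‖χ g‖ ≤ (r + |C_Q(g)| / |A|) χ(1)`.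
-/

set_option autoImplicit false

namespace Cfsg.Agent.H395.FR

open Module Subgroup
open Cfsg.Agent.H572.FR (fx cd mem_fx)
open Cfsg.Agent.H980.RB (comSet fixM norm_trace_le_fix)

variable {G : Type*} [Group G] [Finite G] {V : Type*} [AddCommGroup V] [Module ℂ V] [FiniteDimensional ℂ V]
  (ρ : Representation ℂ G V)

theorem card_mul_cd (B : Subgroup G) [Fintype B] : (Nat.card B : ℂ) * cd ρ B = ∑ x : B, ρ.character (x : G) := by
  have hN : (Nat.card B : ℂ) ≠ 0 := by exact_mod_cast Nat.card_pos.ne'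
  set e : V →ₗ[ℂ] V := (Nat.card B : ℂ)⁻¹ • ∑ x : B, ρ (x : G) with he
  have h1 : ∀ v, e v ∈ fx ρ B := by
    intro v a ha
    rw [he, LinearMap.smul_apply, map_smul, LinearMap.sum_apply, map_sum]
    congr 1
    rw [← Equiv.sum_comp (Equiv.mulLeft (⟨a, ha⟩ : B)) (fun x : B => ρ (x : G) v)]
    refine Finset.sum_congr rfl fun x _ => ?_
    rw [Equiv.coe_mulLeft, Subgroup.coe_mul, map_mul]
    rfl
  have h2 : ∀ w ∈ fx ρ B, e w = w := by
    intro w hw
    rw [he, LinearMap.smul_apply, LinearMap.sum_apply]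
    have h3 : ∀ x : B, ρ (x : G) w = w := fun x => hw x x.2
    rw [Finset.sum_congr rfl fun x _ => h3 x, Finset.sum_const, Finset.card_univ, ← Nat.card_eq_fintype_card,
      ← Nat.cast_smul_eq_nsmul ℂ, smul_smul, inv_mul_cancel₀ hN, one_smul]
  have h3 : LinearMap.IsProj (fx ρ B) e := ⟨h1, h2⟩
  have h4 := LinearMap.IsProj.trace h3
  rw [he, map_smul, map_sum, smul_eq_mul] at h4
  have h5 : (cd ρ B : ℂ) = (Nat.card B : ℂ)⁻¹ * ∑ x : B, ρ.character (x : G) := h4.symm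
  rw [h5, ← mul_assoc, mul_inv_cancel₀ hN, one_mul]

variable {ρ} in
theorem cd_le {B : Subgroup G} {r : ℝ}
    (h : ∀ b ∈ B, b ≠ 1 → ‖ρ.character b‖ ≤ r * finrank ℂ V) (hr : 0 ≤ r) :
    (cd ρ B : ℝ) ≤ (r + (Nat.card B : ℝ)⁻¹) * finrank ℂ V := by
  classical
  have := Fintype.ofFinite B
  have hN : (0 : ℝ) < Nat.card B := by exact_mod_cast Nat.card_pos
  have h1 := congrArg norm (card_mul_cd ρ B)
  rw [norm_mul, Complex.norm_natCast, Complex.norm_natCast, ← Finset.add_sum_erase _ _ (Finset.mem_univ (1 : B))] at h1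
  have h2 : ‖ρ.character ((1 : B) : G)‖ = finrank ℂ V := by
    rw [Subgroup.coe_one, Representation.char_one, Complex.norm_natCast]
  have h3 : ‖∑ x ∈ Finset.univ.erase (1 : B), ρ.character (x : G)‖ ≤ (Nat.card B : ℝ) * (r * finrank ℂ V) := by
    refine (norm_sum_le _ _).trans ?_
    have h6 : ∀ x ∈ Finset.univ.erase (1 : B), ‖ρ.character ((x : B) : G)‖ ≤ r * finrank ℂ V := fun x hx =>
      h x x.2 fun hx1 => Finset.ne_of_mem_erase hx (Subtype.ext hx1)
    refine (Finset.sum_le_card_nsmul _ _ _ h6).trans ?_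
    rw [nsmul_eq_mul]
    have h4 : ((Finset.univ.erase (1 : B)).card : ℝ) ≤ Nat.card B := by
      rw [Nat.card_eq_fintype_card, ← Finset.card_univ]
      exact_mod_cast Finset.card_le_card (Finset.erase_subset _ _)
    have h5 : 0 ≤ r * (finrank ℂ V : ℝ) := by positivity
    exact mul_le_mul_of_nonneg_right h4 h5
  have h4 : (Nat.card B : ℝ) * cd ρ B ≤ finrank ℂ V + (Nat.card B : ℝ) * (r * finrank ℂ V) := by
    rw [h1]
    exact (norm_add_le _ _).trans (add_le_add h2.le h3)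
  have h5 : (Nat.card B : ℝ) * ((r + (Nat.card B : ℝ)⁻¹) * finrank ℂ V) =
      finrank ℂ V + (Nat.card B : ℝ) * (r * finrank ℂ V) := by
    field_simp
    ring
  rw [← h5] at h4
  exact le_of_mul_le_mul_left h4 hN

theorem norm_le_cd {Q : Subgroup G} (hQ : ∀ a ∈ Q, ∀ b ∈ Q, a * b = b * a) {g : G}
    (hg : g ∈ normalizer (Q : Set G)) {B : Subgroup G} (hB : ∀ b ∈ B, ∃ q ∈ Q, b = q * g * q⁻¹ * g⁻¹) :
    ‖ρ.character g‖ ≤ cd ρ B := by
  refine (norm_trace_le_fix ρ Q (fun a ha b hb => by rw [← map_mul, hQ a ha b hb, map_mul]) g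
    (fun q => mem_normalizer_iff.1 hg q)).trans ?_
  have h1 : fixM ρ (comSet Q g) ≤ fx ρ B := by
    intro v hv b hb
    obtain ⟨q, hq, rfl⟩ := hB b hb
    exact hv _ ⟨q, hq, rfl⟩
  exact_mod_cast Submodule.finrank_mono h1

/-- the commutators form a subgroup of order `|Q| / |C_Q(g)|` -/
theorem exists_comm {Q : Subgroup G} (hQ : ∀ a ∈ Q, ∀ b ∈ Q, a * b = b * a) {g : G}
    (hg : g ∈ normalizer (Q : Set G)) : ∃ B : Subgroup G, B ≤ Q ∧ (∀ b ∈ B, ∃ q ∈ Q, b = q * g * q⁻¹ * g⁻¹) ∧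
      Nat.card Q = Nat.card B * Nat.card ↥(Q ⊓ centralizer {g}) := by
  have hmem : ∀ q ∈ Q, q * g * q⁻¹ * g⁻¹ ∈ Q := by
    intro q hq
    have h1 := (mem_normalizer_iff.1 hg _).1 (Q.inv_mem hq)
    have h2 : q * g * q⁻¹ * g⁻¹ = q * (g * q⁻¹ * g⁻¹) := by group
    rw [h2]
    exact Q.mul_mem hq h1
  let f : Q →* Q := MonoidHom.mk' (fun q => ⟨(q : G) * g * (q : G)⁻¹ * g⁻¹, hmem q q.2⟩) (by
    intro a b
    apply Subtype.ext
    show ((a * b : Q) : G) * g * ((a * b : Q) : G)⁻¹ * g⁻¹ = ((a : G) * g * (a : G)⁻¹ * g⁻¹) * ((b : G) * g * (b : G)⁻¹ * g⁻¹)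
    have h1 := hQ _ (hmem b b.2) (g * (a : G)⁻¹ * g⁻¹) ((mem_normalizer_iff.1 hg _).1 (Q.inv_mem a.2))
    have h2 : ((a * b : Q) : G) * g * ((a * b : Q) : G)⁻¹ * g⁻¹ =
        (a : G) * (((b : G) * g * (b : G)⁻¹ * g⁻¹) * (g * (a : G)⁻¹ * g⁻¹)) := by
      rw [Subgroup.coe_mul]; group
    rw [h2, h1]
    group)
  refine ⟨f.range.map Q.subtype, map_subtype_le _, ?_, ?_⟩
  · rintro _ ⟨_, ⟨q, rfl⟩, rfl⟩
    exact ⟨q, q.2, rfl⟩
  · rw [card_map_of_injective Q.subtype_injective]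
    have h1 : Nat.card Q = Nat.card f.range * Nat.card f.ker := by
      rw [mul_comm, ← Subgroup.card_mul_index f.ker, Subgroup.index_ker]
    have h2 : f.ker.map Q.subtype = Q ⊓ centralizer {g} := by
      ext x
      constructor
      · rintro ⟨q, hq, rfl⟩
        refine ⟨q.2, ?_⟩
        show (q : G) ∈ centralizer {g}
        rw [mem_centralizer_singleton_iff]
        have h3 : (q : G) * g * (q : G)⁻¹ * g⁻¹ = 1 := congrArg Subtype.val ((MonoidHom.mem_ker).1 hq)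
        have h4 : (q : G) * g = g * (q : G) := by
          calc (q : G) * g = ((q : G) * g * (q : G)⁻¹ * g⁻¹) * g * (q : G) := by group
            _ = g * (q : G) := by rw [h3, one_mul]
        first
          | exact h4
          | exact h4.symm
      · rintro ⟨hx, hxc⟩
        refine ⟨⟨x, hx⟩, ?_, rfl⟩
        rw [SetLike.mem_coe, MonoidHom.mem_ker]
        apply Subtype.ext
        show x * g * x⁻¹ * g⁻¹ = 1
        have h3 := mem_centralizer_singleton_iff.1 hxc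
        have h4 : x * g = g * x := by
          first
            | exact h3
            | exact h3.symm
        rw [h4]
        group
    rw [h1, ← h2, card_map_of_injective Q.subtype_injective]

/-- **The bound.** -/
theorem bound_abelian {Q A : Subgroup G} (hQ : ∀ a ∈ Q, ∀ b ∈ Q, a * b = b * a) (hA : A ≤ Q) {g : G}
    (hg : g ∈ normalizer (Q : Set G)) {r : ℝ} (hr : 0 ≤ r)
    (h : ∀ a ∈ A, a ≠ 1 → ‖ρ.character a‖ ≤ r * finrank ℂ V) :
    ‖ρ.character g‖ ≤ (r + (Nat.card ↥(Q ⊓ centralizer {g}) : ℝ) / Nat.card A) * finrank ℂ V := by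
  obtain ⟨B, hBQ, hB, hc⟩ := exists_comm hQ hg
  have h1 := norm_le_cd ρ hQ hg (B := B ⊓ A) fun b hb => hB b hb.1
  have h2 := cd_le (ρ := ρ) (B := B ⊓ A) (r := r) (fun b hb hb1 => h b hb.2 hb1) hr
  refine h1.trans (h2.trans ?_)
  -- `|A| ≤ |B ⊓ A| |C|`
  have hQpos : 0 < Nat.card Q := Nat.card_pos
  have hBpos : 0 < Nat.card B := Nat.card_pos
  have hApos : 0 < Nat.card A := Nat.card_pos
  have hBApos : 0 < Nat.card ↥(B ⊓ A) := Nat.card_pos
  have h3 : Nat.card B * Nat.card A ≤ Nat.card ↥(B ⊓ A) * Nat.card Q := by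
    have h4 : B.relIndex A ≤ B.relIndex Q := Subgroup.relIndex_le_of_le_right hA (by
      have : (B.subgroupOf Q).index ≠ 0 := Subgroup.index_ne_zero_of_finite
      exact this)
    have h5 : Nat.card ↥(B ⊓ A) * B.relIndex A = Nat.card A := by
      have := Subgroup.card_mul_index (B.subgroupOf A)
      rw [← this]
      congr 1
      have h6 : (B.subgroupOf A).map A.subtype = B ⊓ A := Subgroup.subgroupOf_map_subtype B A
      rw [← h6, card_map_of_injective A.subtype_injective]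
    have h6 : Nat.card B * B.relIndex Q = Nat.card Q := by
      have := Subgroup.card_mul_index (B.subgroupOf Q)
      rw [← this]
      congr 1
      have h7 : (B.subgroupOf Q).map Q.subtype = B := by
        rw [Subgroup.subgroupOf_map_subtype, inf_eq_left.2 hBQ]
      conv_lhs => rw [← h7]
      exact card_map_of_injective Q.subtype_injective
    calc Nat.card B * Nat.card A = Nat.card B * (Nat.card ↥(B ⊓ A) * B.relIndex A) := by rw [h5]
      _ = Nat.card ↥(B ⊓ A) * (Nat.card B * B.relIndex A) := by ring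
      _ ≤ Nat.card ↥(B ⊓ A) * (Nat.card B * B.relIndex Q) := by gcongr
      _ = Nat.card ↥(B ⊓ A) * Nat.card Q := by rw [h6]
  rw [hc] at h3
  have h4 : Nat.card A ≤ Nat.card ↥(B ⊓ A) * Nat.card ↥(Q ⊓ centralizer {g}) := by
    have h5 : Nat.card B * Nat.card A ≤ Nat.card B * (Nat.card ↥(B ⊓ A) * Nat.card ↥(Q ⊓ centralizer {g})) := by
      calc Nat.card B * Nat.card A ≤ _ := h3
        _ = _ := by ring
    exact Nat.le_of_mul_le_mul_left h5 hBpos
  have h5 : (Nat.card ↥(B ⊓ A) : ℝ)⁻¹ ≤ (Nat.card ↥(Q ⊓ centralizer {g}) : ℝ) / Nat.card A := by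
    rw [inv_eq_one_div, div_le_div_iff₀ (by exact_mod_cast hBApos) (by exact_mod_cast hApos), one_mul]
    rw [mul_comm]
    exact_mod_cast h4
  gcongr

end Cfsg.Agent.H395.FR
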