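import Cfsg.Agent.H395.FR.Nrm
import Cfsg.Agent.H224.FR.Conj
import Cfsg.Agent.H572.FR.Gen
import Cfsg.Agent.H994.FR.Lng

/-!
# `F₄(q)`, `q` odd: the dichotomy for the maximal parabolic subgroups of the nodes `0`, `1`, `2` (S2452; helper395)

`dich` : `g ∈ P_i`, `i ≠ 3`: `‖χ g‖ ≤ (r + 1 / q²) χ(1)`, or `g` is conjugate into the centraliser of `X_θ`.
-/

set_option autoImplicit false
set_option linter.unusedSectionVars false

namespace Cfsg.Agent.H395.FR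

open Module Subgroup CoxeterSystem Cfsg.Agent.ChevalleyStructure.CoxeterGeom Cfsg.Agent.Tits.Roots
  Cfsg.Agent.Nodes.Reps Cfsg.Agent.Nodes.BNOf Cfsg.Agent.Nodes.StabComb Cfsg.Agent.Nodes.LeviDec
  Cfsg.Agent.Nodes.RGDChev Cfsg.Agent.KFacts.RgdChevCoord Cfsg.Agent.Nodes.ChevCls
  Cfsg.Agent.OddHalf.NI.ModelChev
open Cfsg.Lie Cfsg.Agent.ChevalleyStructure Cfsg.Agent.ChevalleyStructure.RootVec
  Cfsg.Agent.ChevalleyStructure.NPerm
open Cfsg.Agent.H701.F43.Cent (hF cF nroots finW VV MM)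
open Cfsg.Agent.H520.FC (PK VK XT)
open Cfsg.Agent.H224.FR (EE X mem_X X_le_EE EE_le EE_congr AA L0)

universe u

section abs

variable {G : Type*} [Group G] [Finite G] {V : Type*} [AddCommGroup V] [Module ℂ V] [FiniteDimensional ℂ V]
  {ρ : Representation ℂ G V}

/-- the counting form -/
theorem bound_inf {Q S : Subgroup G} (hQ : ∀ a ∈ Q, ∀ b ∈ Q, a * b = b * a) (hS : S ≤ Q) {g : G}
    (hg : g ∈ normalizer (Q : Set G)) {r : ℝ} (hr : 0 ≤ r) (h : ∀ a ∈ Q, a ≠ 1 → ‖ρ.character a‖ ≤ r * finrank ℂ V)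
    {n : ℕ} (hn : 0 < n) (hn' : n ≤ Nat.card S) :
    ‖ρ.character g‖ ≤ (r + (n : ℝ)⁻¹) * finrank ℂ V ∨ ∃ e ∈ S, e ≠ 1 ∧ g * e = e * g := by
  by_cases hc : ∃ e ∈ S, e ≠ 1 ∧ g * e = e * g
  · exact Or.inr hc
  push Not at hc
  refine Or.inl ((bound_abelian ρ hQ le_rfl hg hr h).trans ?_)
  have h1 : Nat.card ↥(Q ⊓ centralizer {g}) * Nat.card S ≤ Nat.card Q := by
    rw [← Nat.card_prod]
    refine Nat.card_le_card_of_injective (fun x : ↥(Q ⊓ centralizer {g}) × ↥S =>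
      (⟨x.1 * x.2, mul_mem x.1.2.1 (hS x.2.2)⟩ : ↥Q)) ?_
    rintro ⟨⟨a, ha⟩, ⟨b, hb⟩⟩ ⟨⟨a', ha'⟩, ⟨b', hb'⟩⟩ e
    have e1 : a * b = a' * b' := congrArg Subtype.val e
    have e2 : a'⁻¹ * a = b' * b⁻¹ := by
      rw [inv_mul_eq_iff_eq_mul, ← mul_assoc, ← e1, mul_inv_cancel_right]
    have e3 : a'⁻¹ * a ∈ Q ⊓ centralizer {g} := mul_mem (inv_mem ha') ha
    have e4 : a'⁻¹ * a = 1 := by
      by_contra hne
      refine hc _ (by rw [e2]; exact mul_mem hb' (inv_mem hb)) hne ?_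
      have h2 := mem_centralizer_singleton_iff.1 e3.2
      first
        | exact h2
        | exact h2.symm
    have e5 : a = a' := (inv_mul_eq_one.1 e4).symm
    subst e5
    have e6 : b = b' := mul_left_cancel e1
    subst e6
    rfl
  have hQ0 : (0 : ℝ) < Nat.card Q := by exact_mod_cast Nat.card_pos
  have hn0 : (0 : ℝ) < n := by exact_mod_cast hn
  have h2 : (Nat.card ↥(Q ⊓ centralizer {g}) : ℝ) / Nat.card Q ≤ (n : ℝ)⁻¹ := by
    rw [div_le_iff₀ hQ0, inv_mul_eq_div, le_div_iff₀ hn0]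
    exact_mod_cast (Nat.mul_le_mul_left _ hn').trans h1
  exact mul_le_mul_of_nonneg_right (by linarith) (Nat.cast_nonneg _)

end abs

variable {K : Type u} [Field K] [Finite K]

/-- `A` is abelian -/
theorem comm_A (h2 : (2 : K) ≠ 0) {a b : ↥(chevF4.group K)} (ha : a ∈ EE K [41, 42, 43, 44, 45, 46, 47])
    (hb : b ∈ EE K [41, 42, 43, 44, 45, 46, 47]) : a * b = b * a := by
  obtain ⟨g, hg⟩ := H224.FR.exists_conj (K := K)
  have ha' : a ∈ (EE K L0).map (MulAut.conj g).toMonoidHom := by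
    rw [← hg]
    exact ha
  have hb' : b ∈ (EE K L0).map (MulAut.conj g).toMonoidHom := by
    rw [← hg]
    exact hb
  obtain ⟨x, hx, rfl⟩ := ha'
  obtain ⟨y, hy, rfl⟩ := hb'
  rw [← map_mul, ← map_mul, H572.FR.comm_EE h2 hx hy]

theorem le_A {L : List ℕ} (hL : ∀ r ∈ L, r ∈ [41, 42, 43, 44, 45, 46, 47]) :
    EE K L ≤ EE K [41, 42, 43, 44, 45, 46, 47] := EE_le fun r hr => X_le_EE (hL r hr)

variable {V : Type*} [AddCommGroup V] [Module ℂ V] [FiniteDimensional ℂ V] {ρ : Representation ℂ ↥(chevF4.group K) V}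

/-- **The dichotomy.** -/
theorem dich_gen (h2 : (2 : K) ≠ 0) {r : ℝ} (hr0 : 0 ≤ r)
    (hr : ∀ a ∈ EE K AA, a ≠ 1 → ‖ρ.character a‖ ≤ r * finrank ℂ V) {i : Fin 4} (hi : i ≠ 3) {g : ↥(chevF4.group K)}
    (hg : g ∈ PK K {k | k ≠ i}) :
    ‖ρ.character g‖ ≤ (r + ((Nat.card K : ℝ) ^ 2)⁻¹) * finrank ℂ V ∨
      ∃ x : ↥(chevF4.group K), ∃ c : K, c ≠ 0 ∧
        (x * g * x⁻¹) * xc hF (vec chevF4 4 47) c = xc hF (vec chevF4 4 47) c * (x * g * x⁻¹) := by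
  have key : ∀ (Q S : List ℕ), (∀ r ∈ Q, r ∈ [41, 42, 43, 44, 45, 46, 47]) → (∀ r ∈ S, r ∈ Q) →
      (∀ r ∈ S, r ∈ [45, 46, 47]) → 46 ∈ S → 47 ∈ S → g ∈ normalizer (EE K Q : Set ↥(chevF4.group K)) →
      ‖ρ.character g‖ ≤ (r + ((Nat.card K : ℝ) ^ 2)⁻¹) * finrank ℂ V ∨
      ∃ x : ↥(chevF4.group K), ∃ c : K, c ≠ 0 ∧
        (x * g * x⁻¹) * xc hF (vec chevF4 4 47) c = xc hF (vec chevF4 4 47) c * (x * g * x⁻¹) := by
    intro Q S hQ hSQ hS h6 h7 hgN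
    have hq : 0 < Nat.card K ^ 2 := pow_pos Nat.card_pos 2
    rcases bound_inf (ρ := ρ) (Q := EE K Q) (S := EE K S) (fun a ha b hb => comm_A h2 (le_A hQ ha) (le_A hQ hb))
        (EE_le fun r hr => X_le_EE (hSQ r hr)) hgN hr0 (fun a ha ha1 => hr a (le_A hQ ha) ha1) hq
        (card_two h6 h7) with h | ⟨e, he, he1, hge⟩
    · left
      rw [Nat.cast_pow] at h
      exact h
    · right
      obtain ⟨x, c, hc, hx⟩ := H994.FR.lng_E3 ((EE_le fun r hr => X_le_EE (hS r hr) : EE K S ≤ EE K [45, 46, 47]) he) he1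
      refine ⟨x, c, hc, ?_⟩
      rw [← hx]
      calc x * g * x⁻¹ * (x * e * x⁻¹) = x * (g * e) * x⁻¹ := by group
        _ = x * (e * g) * x⁻¹ := by rw [hge]
        _ = x * e * x⁻¹ * (x * g * x⁻¹) := by group
  fin_cases i
  · exact key [41, 42, 43, 44, 45, 46, 47] [45, 46, 47] (by decide) (by decide) (by decide) (by decide) (by decide)
      (norm_zero hg)
  · exact key [45, 46, 47] [45, 46, 47] (by decide) (by decide) (by decide) (by decide) (by decide) (norm_one hg)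
  · exact key [46, 47] [46, 47] (by decide) (by decide) (by decide) (by decide) (by decide) (norm_two hg)
  · exact absurd rfl hi

/-- the element commutes with all of `X_θ` -/
theorem mem_cent {g : ↥(chevF4.group K)} {c : K} (hc : c ≠ 0)
    (h : g * xc hF (vec chevF4 4 47) c = xc hF (vec chevF4 4 47) c * g) :
    g ∈ VV K ⊔ MM K ∧ ∀ z ∈ XT K, g * z = z * g := by
  obtain ⟨v, hv, m, hm, rfl⟩ := Cfsg.Agent.H701.F43.Cent.cent hc h
  have h1 : v * m ∈ VV K ⊔ MM K := mul_mem (mem_sup_left hv) (mem_sup_right hm)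
  exact ⟨h1, fun z hz => Cfsg.Agent.H701.F43.Cent.comm_theta h1 hz⟩

/-- **The dichotomy, `q ≥ 9`.** -/
theorem dich (h2 : (2 : K) ≠ 0) (h9 : 9 ≤ Nat.card K) {d : ℕ}
    (ρ : Representation ℂ ↥(chevF4.group K) (Fin d → ℂ)) (hirr : ρ.IsIrreducible) (hρ : ρ.character ≠ (fun _ => 1))
    {i : Fin 4} (hi : i ≠ 3) {g : ↥(chevF4.group K)} (hg : g ∈ PK K {k | k ≠ i}) :
    ‖ρ.character g‖ ≤ (1 / 50 + ((Nat.card K : ℝ) ^ 2)⁻¹) * d ∨
      ∃ x : ↥(chevF4.group K), x * g * x⁻¹ ∈ VV K ⊔ MM K ∧ ∀ z ∈ XT K, (x * g * x⁻¹) * z = z * (x * g * x⁻¹) := by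
  have hd : (finrank ℂ (Fin d → ℂ) : ℝ) = d := by rw [finrank_fin_fun]
  rcases dich_gen (ρ := ρ) h2 (by norm_num : (0 : ℝ) ≤ 1 / 50)
      (fun a ha ha1 => by rw [hd]; exact H224.FR.ratioA_nine h2 h9 ρ hirr hρ ha ha1) hi hg with h | ⟨x, c, hc, hx⟩
  · left
    rw [hd] at h
    exact h
  · exact Or.inr ⟨x, mem_cent hc hx⟩

end Cfsg.Agent.H395.FR
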