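import Cfsg.Agent.H520.FC.CB
import Cfsg.Agent.H224.FR.RThree
import Cfsg.Agent.H395.FR.Fix

/-!
# `F₄(q)`: normal subgroups of the maximal parabolic subgroups (S2452; helper395)

`SS K i m = ⟨X x : m ≤ x i⟩`, `0 < m`, is normalised by the maximal parabolic subgroup of the node `i`.
-/

set_option autoImplicit false
set_option linter.unusedSectionVars false

namespace Cfsg.Agent.H395.FR

open Subgroup CoxeterSystem Cfsg.Agent.ChevalleyStructure.CoxeterGeom Cfsg.Agent.Tits.Roots Cfsg.Agent.Tits.Core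
  Cfsg.Agent.Tits.Exchange Cfsg.Agent.Nodes.Reps Cfsg.Agent.Nodes.BNOf Cfsg.Agent.Nodes.StabComb
  Cfsg.Agent.Nodes.Bruhat Cfsg.Agent.Nodes.OppDec Cfsg.Agent.Nodes.LeviDec Cfsg.Agent.Nodes.NormX
  Cfsg.Agent.Nodes.Coroot Cfsg.Agent.Nodes.RGDChev Cfsg.Agent.KFacts.RgdPar Cfsg.Agent.KFacts.RgdTI
  Cfsg.Agent.KFacts.RgdCent Cfsg.Agent.KFacts.RgdChevCoord Cfsg.Agent.Nodes.ChevCls
  Cfsg.Agent.OddHalf.NI.ModelChev Cfsg.Agent.H225.PPow
open Cfsg.Lie Cfsg.Agent.ChevalleyStructure Cfsg.Agent.ChevalleyStructure.Elts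
  Cfsg.Agent.ChevalleyStructure.RootVec Cfsg.Agent.ChevalleyStructure.NPerm
  Cfsg.Agent.ChevalleyStructure.CoxeterGeomTypes
open Cfsg.Agent.H701.F43.Cent (hF cF nroots finW)
open Cfsg.Agent.KFacts.RgdFilt Cfsg.Agent.KFacts.RgdBorelTits
open scoped commutatorElement
open Cfsg.Agent.H520.FC (PK VK XT intComm)
open Cfsg.Agent.H224.FR (EE X mem_X X_le_EE EE_le EE_congr)

universe u

variable (K : Type u) [Field K]

/-- the join over the roots with coefficient at least `m` at the node `i` -/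
def SS (i : Fin 4) (m : ℤ) : Subgroup ↥(chevF4.group K) :=
  RGD.Sup (XX chevF4 4 K) {x | IsRoot cF hF.isCartan x ∧ m ≤ x i}

variable {K}

theorem X_norm {i : Fin 4} {m : ℤ} (hm : 0 < m) {y : Fin 4 → ℤ} (hy : IsRoot cF hF.isCartan y) (h0 : 0 ≤ y i) :
    XX chevF4 4 K y ≤ normalizer (SS K i m : Set ↥(chevF4.group K)) := by
  have key : ∀ a ∈ XX chevF4 4 K y, cj a (SS K i m) ≤ SS K i m := by
    intro a ha
    rw [SS, RGD.cj_Sup]
    refine iSup_le ?_
    rintro ⟨z, hz⟩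
    by_cases hyz : y = z
    · subst hyz
      rw [cj_eq_of_mem ha]
      exact RGD.le_Sup hz
    · intro b hb
      rw [mem_cj] at hb
      have hne : y ≠ -z := by
        rintro rfl
        have h1 := hz.2
        rw [Pi.neg_apply] at h0
        omega
      have h1 := intComm y z hy hz.1 hyz hne a ha _ hb
      have h2 : b = ⁅a, a⁻¹ * b * a⁆ * (a⁻¹ * b * a) := by
        rw [commutatorElement_def]; group
      rw [h2]
      refine mul_mem ?_ (RGD.le_Sup hz hb)
      have h3 : FS (XX chevF4 4 K) {w | IB cF hF.isCartan y z w} ≤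
          RGD.Sup (XX chevF4 4 K) {x | IsRoot cF hF.isCartan x ∧ m ≤ x i} := by
        refine FS_le fun w hw => RGD.le_Sup ?_
        obtain ⟨hw1, c, d, hc, hd, e⟩ := hw
        refine ⟨hw1, ?_⟩
        rw [e, Pi.add_apply, Pi.smul_apply, Pi.smul_apply, smul_eq_mul, smul_eq_mul]
        have h4 := hz.2
        have h5 : 0 ≤ c * y i := mul_nonneg hc.le h0
        have h6 : z i ≤ d * z i := le_mul_of_one_le_left (by omega) hd
        omega
      exact h3 h1
  intro a ha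
  rw [mem_normalizer_iff_cj]
  apply le_antisymm (key a ha)
  have h1 := key a⁻¹ (inv_mem ha)
  have h2 := cj_mono a h1
  rwa [cj_cj_inv] at h2

variable [Finite K]

theorem PK_norm {i : Fin 4} {m : ℤ} (hm : 0 < m) : PK K {k | k ≠ i} ≤ normalizer (SS K i m : Set ↥(chevF4.group K)) := by
  obtain ⟨p, hpc⟩ := CharP.exists K
  have : Fact p.Prime := ⟨CharP.char_is_prime K p⟩
  refine sup_le (sup_le ?_ ?_) ?_
  · exact (rgd (K := K) hF cF p).T_le_normalizer fun _ hx => hx.1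
  · refine RGD.Sup_le fun x hx => X_norm hm hx.1 (le_of_eq ?_)
    exact (hx.2 i fun h => h rfl).symm
  · exact RGD.Sup_le fun x hx => X_norm hm hx.1 (hx.2.1 i)

/-- the join as a join over a list -/
theorem SS_eq {i : Fin 4} {m : ℤ} {L : List ℕ} (hL : ∀ r ∈ L, r < 48)
    (tab : ∀ r < chevF4.nroots, (m ≤ vec chevF4 4 r i ↔ r ∈ L)) : SS K i m = EE K L := by
  apply le_antisymm
  · refine RGD.Sup_le fun x hx => ?_
    obtain ⟨r, hr, rfl⟩ := (isRoot_iff hF cF x).1 hx.1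
    exact X_le_EE ((tab r hr).1 hx.2)
  · refine EE_le fun r hr => ?_
    have hr' : r < chevF4.nroots := by
      rw [nroots]
      exact hL r hr
    exact RGD.le_Sup ⟨(isRoot_iff hF cF _).2 ⟨r, hr', rfl⟩, (tab r hr').2 hr⟩

theorem SS_zero : SS K 0 2 = EE K [41, 42, 43, 44, 45, 46, 47] := SS_eq (by decide) (by decide +kernel)

theorem SS_one : SS K 1 4 = EE K [45, 46, 47] := SS_eq (by decide) (by decide +kernel)

theorem SS_two : SS K 2 3 = EE K [46, 47] := SS_eq (by decide) (by decide +kernel)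

theorem norm_zero : PK K {k | k ≠ 0} ≤ normalizer (EE K [41, 42, 43, 44, 45, 46, 47] : Set ↥(chevF4.group K)) := by
  rw [← SS_zero]
  exact PK_norm (by norm_num)

theorem norm_one : PK K {k | k ≠ 1} ≤ normalizer (EE K [45, 46, 47] : Set ↥(chevF4.group K)) := by
  rw [← SS_one]
  exact PK_norm (by norm_num)

theorem norm_two : PK K {k | k ≠ 2} ≤ normalizer (EE K [46, 47] : Set ↥(chevF4.group K)) := by
  rw [← SS_two]
  exact PK_norm (by norm_num)

theorem card_X {r : ℕ} (hr : r < 48) : Nat.card ↥(X K r) = Nat.card K := by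
  obtain ⟨p, hpc⟩ := CharP.exists K
  have : Fact p.Prime := ⟨CharP.char_is_prime K p⟩
  have C := (coords (K := K) hF cF p).coord _ (H224.FR.isRoot hr)
  refine (Nat.card_congr (Equiv.ofBijective (fun a : K => (⟨xc hF (vec chevF4 4 r) a, (C.mem _).2 ⟨a, rfl⟩⟩ : ↥(X K r)))
    ⟨fun a b h => C.inj (congrArg Subtype.val h), ?_⟩)).symm
  rintro ⟨y, hy⟩
  obtain ⟨a, rfl⟩ := (C.mem _).1 hy
  exact ⟨a, rfl⟩

/-- two different root groups of positive roots generate a group of order at least `q²` -/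
theorem card_two {L : List ℕ} (h6 : 46 ∈ L) (h7 : 47 ∈ L) : Nat.card K ^ 2 ≤ Nat.card ↥(EE K L) := by
  have : Finite ↥(chevF4.group K) := inferInstance
  obtain ⟨p, hpc⟩ := CharP.exists K
  have : Fact p.Prime := ⟨CharP.char_is_prime K p⟩
  have hd : X K 46 ⊓ X K 47 = ⊥ := by
    refine X_inf_X (rgd (K := K) hF cF p) (H224.FR.isRoot (by norm_num)) (H224.FR.isRoot (by norm_num)) fun h => ?_
    have h1 := congrFun h 3
    revert h1
    decide +kernel
  rw [pow_two]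
  nth_rewrite 1 [← card_X (K := K) (r := 46) (by norm_num)]
  rw [← card_X (K := K) (r := 47) (by norm_num), ← Nat.card_prod]
  refine Nat.card_le_card_of_injective (fun x : ↥(X K 46) × ↥(X K 47) =>
    (⟨x.1 * x.2, mul_mem (X_le_EE h6 x.1.2) (X_le_EE h7 x.2.2)⟩ : ↥(EE K L))) ?_
  rintro ⟨⟨a, ha⟩, ⟨b, hb⟩⟩ ⟨⟨a', ha'⟩, ⟨b', hb'⟩⟩ e
  have e1 : a * b = a' * b' := congrArg Subtype.val e
  have e2 : a'⁻¹ * a = b' * b⁻¹ := by
    rw [inv_mul_eq_iff_eq_mul, ← mul_assoc, ← e1, mul_inv_cancel_right]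
  have e3 : a'⁻¹ * a ∈ X K 46 ⊓ X K 47 :=
    Subgroup.mem_inf.2 ⟨mul_mem (inv_mem ha') ha, by rw [e2]; exact mul_mem hb' (inv_mem hb)⟩
  rw [hd, Subgroup.mem_bot] at e3
  have e4 : a = a' := (inv_mul_eq_one.1 e3).symm
  subst e4
  have e5 : b = b' := mul_left_cancel e1
  subst e5
  rfl

end Cfsg.Agent.H395.FR
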